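import Mathlib
import Cfsg.Agent.H669.OverCount
import Cfsg.Agent.H691.Defs
import Cfsg.Agent.LieClassical.FieldTransfer
import Cfsg.Agent.H525.PslK
import Cfsg.Agent.S0806
import Cfsg.Agent.SmallSimple.PSLTwoPart
import Cfsg.Agent.H686.CharKit
import Cfsg.Agent.Characters.Linear
import Cfsg.Agent.Prune
set_option linter.all false
prune_inst 0x7f00000000000000000000000000000000000000000000000000000000000000000000000000000000000000000000000000000000000000000000000000000000000000000000000000000000000000003fffffffffffffffffffffffffffbeffbdffffffff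
open scoped Cfsg.Agent.FastGrp

/-!
# Part E of S4854: `R` is central when `N / R ≅ PSL₂(q)` and the degrees of `G` are degrees of `SL₂(q)` (helper669)
-/

set_option autoImplicit false
set_option linter.style.haveILetI false

namespace Cfsg.Agent.H669.SlTwoE

open Cfsg Cfsg.Agent.Characters.Core Cfsg.Agent.Characters.Clifford Cfsg.Agent.H672

universe u v

/-! ### facts on `PSL₂(q)` -/

section Psl

variable {F : Type*} [Field F] [Fintype F]

theorem psl_finite : Finite (Matrix.ProjectiveSpecialLinearGroup (Fin 2) F) := by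
  unfold Matrix.ProjectiveSpecialLinearGroup
  infer_instance

theorem psl_simple (h5 : 5 ≤ Fintype.card F) :
    IsSimpleGroup (Matrix.ProjectiveSpecialLinearGroup (Fin 2) F) :=
  Matrix.ProjectiveSpecialLinearGroup.rank_two_simple (by rw [Nat.card_eq_fintype_card]; omega)

theorem psl_card (h5 : 5 ≤ Fintype.card F) :
    (Fintype.card F + 1) ^ 2 < Nat.card (Matrix.ProjectiveSpecialLinearGroup (Fin 2) F) := by
  rcases Nat.even_or_odd (Fintype.card F) with h | h
  · rw [SmallSimple.PSLTwoPart.card_psl_two_even h]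
    obtain ⟨t, ht⟩ : ∃ t, Fintype.card F = t + 5 := ⟨Fintype.card F - 5, by omega⟩
    rw [ht]
    have : (t + 5) ^ 2 - 1 = t ^ 2 + 10 * t + 24 := by
      have : (t + 5) ^ 2 = t ^ 2 + 10 * t + 24 + 1 := by ring
      omega
    rw [this]
    nlinarith only []
  · have h1 := SmallSimple.PSLTwoPart.card_psl_two_odd h
    obtain ⟨t, ht⟩ : ∃ t, Fintype.card F = t + 5 := ⟨Fintype.card F - 5, by omega⟩
    rw [ht] at h1 ⊢
    have : (t + 5) ^ 2 - 1 = t ^ 2 + 10 * t + 24 := by
      have : (t + 5) ^ 2 = t ^ 2 + 10 * t + 24 + 1 := by ring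
      omega
    rw [this] at h1
    nlinarith only [h1]

theorem psl_classes₀ {F : Type} [Field F] [Fintype F] (h5 : 5 ≤ Fintype.card F) :
    Nat.card (ConjClasses (Matrix.ProjectiveSpecialLinearGroup (Fin 2) F)) * (Fintype.card F + 1) ^ 2 <
      4 * Nat.card (Matrix.ProjectiveSpecialLinearGroup (Fin 2) F) := by
  rcases Nat.even_or_odd (Fintype.card F) with h | h
  · rw [SmallSimple.PSLTwoPart.card_psl_two_even h, H525.PslK.psl2_even h]
    obtain ⟨t, ht⟩ : ∃ t, Fintype.card F = t + 5 := ⟨Fintype.card F - 5, by omega⟩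
    rw [ht]
    have : (t + 5) ^ 2 - 1 = t ^ 2 + 10 * t + 24 := by
      have : (t + 5) ^ 2 = t ^ 2 + 10 * t + 24 + 1 := by ring
      omega
    rw [this]
    nlinarith only []
  · have h1 := SmallSimple.PSLTwoPart.card_psl_two_odd h
    have h2 := H525.PslK.psl2_odd (F := F) h
    obtain ⟨t, ht⟩ : ∃ t, Fintype.card F = t + 5 := ⟨Fintype.card F - 5, by omega⟩
    rw [ht] at h1 h2 ⊢
    have : (t + 5) ^ 2 - 1 = t ^ 2 + 10 * t + 24 := by
      have : (t + 5) ^ 2 = t ^ 2 + 10 * t + 24 + 1 := by ring
      (clear * - this; omega)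
    rw [this] at h1
    have h3 : 2 * (Nat.card (ConjClasses (Matrix.ProjectiveSpecialLinearGroup (Fin 2) F)) * (t + 5 + 1) ^ 2) =
        (t + 5 + 5) * (t + 5 + 1) ^ 2 := by rw [← h2]; ring
    nlinarith only [h1, h3]

theorem psl_classes (h5 : 5 ≤ Fintype.card F) :
    Nat.card (ConjClasses (Matrix.ProjectiveSpecialLinearGroup (Fin 2) F)) * (Fintype.card F + 1) ^ 2 <
      4 * Nat.card (Matrix.ProjectiveSpecialLinearGroup (Fin 2) F) := by
  classical
  letI : Field (Shrink.{0} F) := inferInstance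
  letI : Fintype (Shrink.{0} F) := Fintype.ofEquiv F (equivShrink.{0} F)
  have hc : Fintype.card (Shrink.{0} F) = Fintype.card F := Fintype.card_congr (equivShrink.{0} F).symm
  let e := LieClassical.FieldTransfer.pslCongr (ι := Fin 2) (Shrink.ringEquiv.{0} F)
  have h := psl_classes₀ (F := Shrink.{0} F) (by rw [hc]; exact h5)
  rw [hc, H92.KTools.card_classes_congr e, Nat.card_congr e.toEquiv] at h
  exact h

/-- the order of a simple group divides `n!` for a subgroup of index `n > 1` -/
theorem card_dvd_factorial {A : Type*} [Group A] [Finite A] [hs : IsSimpleGroup A] {X : Subgroup A}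
    (hX : X ≠ ⊤) : Nat.card A ∣ X.index.factorial := by
  classical
  let ρ : A →* Equiv.Perm (A ⧸ X) := MulAction.toPermHom _ _
  have hk : ρ.ker ≤ X := by
    intro a ha
    have h1 : ρ a = 1 := ha
    have h2 := congrArg (fun f : Equiv.Perm (A ⧸ X) => f (QuotientGroup.mk 1)) h1
    have h3 : (QuotientGroup.mk (a * 1) : A ⧸ X) = QuotientGroup.mk 1 := h2
    rw [QuotientGroup.eq, mul_one] at h3
    simpa using h3
  have hb : ρ.ker = ⊥ := by
    rcases (inferInstance : ρ.ker.Normal).eq_bot_or_eq_top with h | h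
    · exact h
    · exact absurd (top_le_iff.1 (h ▸ hk)) hX
  have h1 := Subgroup.card_dvd_of_injective ρ ((MonoidHom.ker_eq_bot_iff ρ).1 hb)
  rwa [Nat.card_perm] at h1

/-- proper subgroups of `PSL₂(q)` have index more than `(q + 1) / 2`. -/
theorem psl_index (h5 : 5 ≤ Fintype.card F)
    (K : Subgroup (Matrix.ProjectiveSpecialLinearGroup (Fin 2) F)) (hK : K ≠ ⊤) :
    Fintype.card F + 1 < 2 * K.index := by
  have := psl_finite (F := F)
  have := psl_simple h5
  by_contra hcon
  have h1 := S0806.main_le K hK (by rw [Nat.card_eq_fintype_card]; omega)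
  rw [Nat.card_eq_fintype_card] at h1
  have h2 := card_dvd_factorial hK
  have h3 : K.index.factorial ∣ ((Fintype.card F + 1) / 2).factorial :=
    Nat.factorial_dvd_factorial (by omega)
  have h4 := h2.trans h3
  have h6 : Fintype.card F = 9 ∨ (Odd (Fintype.card F) ∧ Fintype.card F ≤ 11) := by
    rcases h1 with h1 | h1
    · omega
    · exact h1
  have hodd : Odd (Fintype.card F) := by
    rcases h6 with h6 | h6
    · rw [h6]; decide
    · exact h6.1
  have hc := SmallSimple.PSLTwoPart.card_psl_two_odd hodd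
  generalize hN : Nat.card (Matrix.ProjectiveSpecialLinearGroup (Fin 2) F) = N at hc h4
  generalize Fintype.card F = q at *
  have hq : q = 5 ∨ q = 7 ∨ q = 9 ∨ q = 11 := by
    obtain ⟨m, hm⟩ := hodd
    omega
  have key : ∀ a b : ℕ, N = a → ((q + 1) / 2).factorial = b → ¬ a ∣ b → False := by
    intro a b ha hb hab
    rw [ha, hb] at h4
    exact hab h4
  rcases hq with rfl | rfl | rfl | rfl
  · exact key 60 6 (by omega) rfl (by decide)
  · exact key 168 24 (by omega) rfl (by decide)
  · exact key 360 120 (by omega) rfl (by decide)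
  · exact key 660 720 (by omega) rfl (by decide)

/-- no proper abelian subgroup of `PSL₂(q)` has index at most `q + 1`. -/
theorem no_abelian (h5 : 5 ≤ Fintype.card F)
    (A : Subgroup (Matrix.ProjectiveSpecialLinearGroup (Fin 2) F)) (hA : A ≠ ⊤)
    (hab : ∀ a ∈ A, ∀ b ∈ A, a * b = b * a) (hidx : A.index ≤ Fintype.card F + 1) : False := by
  have := psl_finite (F := F)
  have hs := psl_simple h5
  have hcard := psl_card h5
  have hmul := A.card_mul_index
  have hmax : ∀ K : Subgroup (Matrix.ProjectiveSpecialLinearGroup (Fin 2) F), A < K → K = ⊤ := by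
    intro K hAK
    by_contra hK
    have h1 := psl_index h5 K hK
    have h2 := Subgroup.relIndex_mul_index hAK.le
    have h3 : 2 ≤ A.relIndex K := by
      by_contra h4
      have h5 : A.relIndex K ≠ 0 := by
        intro h6
        rw [h6, zero_mul] at h2
        exact Subgroup.index_ne_zero_of_finite h2.symm
      have h6 : A.relIndex K = 1 := by omega
      exact hAK.not_ge (Subgroup.relIndex_eq_one.1 h6)
    have h4 : 2 * K.index ≤ A.index := by
      rw [← h2]
      exact Nat.mul_le_mul_right _ h3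
    omega
  have hnn : ¬ A.Normal := by
    intro hn
    rcases hn.eq_bot_or_eq_top with h | h
    · rw [h, Subgroup.index_bot] at hidx
      nlinarith only [hidx, hcard]
    · exact hA h
  obtain ⟨g, hg⟩ : ∃ g, ¬ (A.map (MulAut.conj g).toMonoidHom ≤ A) := by
    by_contra hcon
    push Not at hcon
    apply hnn
    refine ⟨fun n hn g => hcon g ⟨n, hn, rfl⟩⟩
  set B := A.map (MulAut.conj g).toMonoidHom with hB
  have hBcard : Nat.card B = Nat.card A :=
    Nat.card_congr (A.equivMapOfInjective _ (MulAut.conj g).injective).toEquiv.symm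
  have hBab : ∀ a ∈ B, ∀ b ∈ B, a * b = b * a := by
    rintro _ ⟨a, ha, rfl⟩ _ ⟨b, hb, rfl⟩
    rw [← map_mul, hab a ha b hb, map_mul]
  have htop : A ⊔ B = ⊤ := hmax _ (lt_of_le_of_ne le_sup_left fun h => hg (h ▸ le_sup_right))
  have hdisj : Disjoint A B := by
    rw [Subgroup.disjoint_def]
    intro x hxA hxB
    have hc : (⊤ : Subgroup (Matrix.ProjectiveSpecialLinearGroup (Fin 2) F)) ≤ Subgroup.centralizer {x} := by
      rw [← htop, sup_le_iff]
      constructor
      · intro a ha
        rw [Subgroup.mem_centralizer_singleton_iff]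
        exact hab a ha x hxA
      · intro a ha
        rw [Subgroup.mem_centralizer_singleton_iff]
        exact hBab a ha x hxB
    have hxz : x ∈ Subgroup.center (Matrix.ProjectiveSpecialLinearGroup (Fin 2) F) := by
      rw [Subgroup.mem_center_iff]
      intro y
      exact Subgroup.mem_centralizer_singleton_iff.1 (hc (Subgroup.mem_top y))
    rcases (inferInstance : (Subgroup.center (Matrix.ProjectiveSpecialLinearGroup (Fin 2) F)).Normal).eq_bot_or_eq_top with h | h
    · rw [h] at hxz
      exact (Subgroup.mem_bot).1 hxz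
    · exfalso
      apply hnn
      refine ⟨fun n hn g => ?_⟩
      have h1 : n ∈ Subgroup.center (Matrix.ProjectiveSpecialLinearGroup (Fin 2) F) := by rw [h]; trivial
      have h2 := Subgroup.mem_center_iff.1 h1 g
      rw [h2, mul_inv_cancel_right]
      exact hn
  have hinj := Subgroup.mul_injective_of_disjoint hdisj
  have h1 := Nat.card_le_card_of_injective _ hinj
  rw [Nat.card_prod, hBcard, ← hmul] at h1
  have h2 : Nat.card A ≤ A.index := Nat.le_of_mul_le_mul_left h1 Nat.card_pos
  rw [← hmul] at hcard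
  have h3 : Nat.card A * A.index ≤ (Fintype.card F + 1) ^ 2 := by
    rw [pow_two]
    exact Nat.mul_le_mul (h2.trans hidx) hidx
  omega

end Psl

/-! ### multiplicities -/

theorem mult_mono {G : Type u} [Group G] {K : Type v} [Group K] [Finite K] {L : Type v} [Group L]
    [Fintype L] (g : K →* G) (f : L →* K) {χ : G → ℂ} (hχ : IsCharacter G χ) {ξ : K → ℂ}
    (hξ : IsIrrCharacter K ξ) (ho : Over g χ ξ) {θ : L → ℂ} (hθ : IsIrrCharacter L θ) {a b : ℕ}
    (ha : classInner (ξ ∘ f) θ = a) (hb : classInner (χ ∘ (g.comp f)) θ = b) : a ≤ b := by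
  classical
  letI := Fintype.ofFinite K
  haveI := finite_irr (G := K)
  letI := Fintype.ofFinite (IrrCharacter K)
  obtain ⟨c, hc, hc'⟩ := CharDeep.CliffordCorr.exists_nat_coeffs
    (isCharacter_comp g hχ : IsCharacter K (χ ∘ g))
  have e : classInner (χ ∘ (g.comp f)) θ =
      ∑ ξ : IrrCharacter K, (c ξ : ℂ) * classInner ((ξ : K → ℂ) ∘ f) θ := by
    have : χ ∘ (g.comp f) = ∑ ξ : IrrCharacter K, (c ξ : ℂ) • ((ξ : K → ℂ) ∘ f) := by
      funext x
      have := congrFun hc (f x)
      simp only [Function.comp, Finset.sum_apply, Pi.smul_apply, MonoidHom.comp_apply] at this ⊢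
      exact this
    rw [this, classInner_sum_left]
    simp_rw [classInner_smul_left]
  choose n hn using fun ξ : IrrCharacter K =>
    classInner_isNat (isCharacter_comp f (isIrr_isCharacter ξ.2)) (isIrr_isCharacter hθ)
  have hna : n ⟨ξ, hξ⟩ = a := by
    have := (hn ⟨ξ, hξ⟩).symm.trans ha
    exact_mod_cast this
  have hc1 : c ⟨ξ, hξ⟩ ≠ 0 := by
    intro h0
    rw [over_iff] at ho
    apply ho
    rw [hc' ⟨ξ, hξ⟩, h0, Nat.cast_zero]
  have hsum : b = ∑ ξ : IrrCharacter K, c ξ * n ξ := by
    have h1 : (b : ℂ) = ((∑ ξ : IrrCharacter K, c ξ * n ξ : ℕ) : ℂ) := by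
      rw [← hb, e]
      push_cast
      exact Finset.sum_congr rfl fun ξ _ => by rw [hn]
    exact_mod_cast h1
  rw [hsum, ← hna]
  calc n ⟨ξ, hξ⟩ ≤ c ⟨ξ, hξ⟩ * n ⟨ξ, hξ⟩ := Nat.le_mul_of_pos_left _ (Nat.pos_of_ne_zero hc1)
    _ ≤ _ := Finset.single_le_sum (f := fun ξ : IrrCharacter K => c ξ * n ξ)
      (fun _ _ => Nat.zero_le _) (Finset.mem_univ (⟨ξ, hξ⟩ : IrrCharacter K))

/-- an element on which all irreducible characters take their degree is trivial. -/
theorem eq_one_of_forall {G : Type u} [Group G] [Finite G] {c : G}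
    (h : ∀ χ : G → ℂ, IsIrrCharacter G χ → χ c = χ 1) : c = 1 := by
  classical
  letI := Fintype.ofFinite G
  have := H686.CharKit.mem_of_forall_chKer (G := G) ⊥ (g := c) (fun χ _ => h χ χ.2)
  exact Subgroup.mem_bot.1 this

/-- as many classes as elements: abelian -/
theorem comm_of_card {G : Type u} [Group G] [Finite G] (h : Nat.card G ≤ Nat.card (ConjClasses G))
    (a b : G) : a * b = b * a := by
  classical
  have hinj : Function.Injective (ConjClasses.mk : G → ConjClasses G) := by
    have : Function.Bijective (ConjClasses.mk : G → ConjClasses G) :=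
      (Nat.bijective_iff_surjective_and_card _).2 ⟨ConjClasses.mk_surjective,
        le_antisymm h (Nat.card_le_card_of_surjective _ ConjClasses.mk_surjective)⟩
    exact this.1
  have h1 : a * b * a⁻¹ = b := by
    apply hinj
    rw [ConjClasses.mk_eq_mk_iff_isConj, isConj_comm]
    exact isConj_iff.2 ⟨a, rfl⟩
  rw [mul_inv_eq_iff_eq_mul] at h1
  exact h1

/-! ### the main argument -/

section Main

variable {H : Type u} [Group H] [Finite H] {F : Type*} [Field F] [Fintype F]

/-- **(E1)** all irreducible characters of `R` are `H`-invariant. -/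
theorem inertia_eq_top (h5 : 5 ≤ Fintype.card F)
    (hD : ∀ η : H → ℂ, IsIrrCharacter H η → charDegree η ≤ Fintype.card F + 1) (R : Subgroup H)
    [R.Normal] (e : (H ⧸ R) ≃* Matrix.ProjectiveSpecialLinearGroup (Fin 2) F) {θ : R → ℂ}
    (hθ : IsIrrCharacter R θ) : inertia R θ = ⊤ := by
  classical
  letI := Fintype.ofFinite H
  letI := Fintype.ofFinite R
  by_contra hne
  set I := inertia R θ with hI
  have hRI : R ≤ I := le_inertia (isIrr_isClassFunction hθ)
  -- the image in `PSL₂(q)`
  set π : H →* Matrix.ProjectiveSpecialLinearGroup (Fin 2) F := e.toMonoidHom.comp (QuotientGroup.mk' R) with hπ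
  have hπs : Function.Surjective π := e.surjective.comp (QuotientGroup.mk'_surjective R)
  have hker : π.ker = R := by
    ext x
    rw [MonoidHom.mem_ker, hπ]
    change e (QuotientGroup.mk x) = 1 ↔ _
    rw [map_eq_one_iff e e.injective, QuotientGroup.eq_one_iff]
  have hidx : (I.map π).index = I.index := Subgroup.index_map_eq _ hπs (by rw [hker]; exact hRI)
  have hAne : I.map π ≠ ⊤ := by
    intro h
    apply hne
    rw [← Subgroup.index_eq_one, ← hidx, h, Subgroup.index_top]
  have h1 := psl_index h5 _ hAne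
  rw [hidx] at h1
  -- degrees
  have hdeg : ∀ η : H → ℂ, IsIrrCharacter H η → Over R.subtype η θ →
      charDegree θ = 1 ∧ charDegree η = I.index := by
    intro η hη ho
    obtain ⟨k, hk⟩ := index_mul_charDegree_dvd R hη hθ ho
    have h2 := hD η hη
    have h3 := charDegree_pos hθ
    have h4 := charDegree_pos hη
    rw [← hI] at hk
    have hk0 : 0 < k := by
      rw [Nat.pos_iff_ne_zero]
      rintro rfl
      omega
    have h6 : charDegree θ * k < 2 := by
      by_contra h7
      have h8 : I.index * 2 ≤ I.index * (charDegree θ * k) := Nat.mul_le_mul_left _ (by omega)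
      rw [← mul_assoc, ← hk] at h8
      omega
    have h7 : charDegree θ = 1 := by
      have : charDegree θ ≤ charDegree θ * k := Nat.le_mul_of_pos_right _ hk0
      omega
    have h8 : k = 1 := by rw [h7, one_mul] at h6; omega
    exact ⟨h7, by rw [hk, h7, h8, mul_one, mul_one]⟩
  obtain ⟨η0, hη0, ho0⟩ := exists_over_subtype R hθ
  have hθ1 := (hdeg η0 hη0 ho0).1
  have hile : I.index ≤ Fintype.card F + 1 := by
    rw [← (hdeg η0 hη0 ho0).2]
    exact hD η0 hη0
  -- multiplicities are one
  have hmult : ∀ η : H → ℂ, IsIrrCharacter H η → Over R.subtype η θ →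
      ∀ n : ℕ, classInner (fun r : R => η r) θ = n → n ≤ 1 := by
    intro η hη ho n hn
    have h2 := CharDeep.CliffordCorr.index_mul_le_degree R hθ I (fun g => mem_inertia_iff)
      (isIrr_isCharacter hη) hn (coe_charDegree hθ).symm (coe_charDegree hη).symm
    rw [(hdeg η hη ho).2, hθ1, mul_one] at h2
    have hpos : 0 < I.index := Nat.pos_of_ne_zero Subgroup.index_ne_zero_of_finite
    by_contra hcon
    have h3 : I.index * 2 ≤ I.index * n := Nat.mul_le_mul_left _ (by omega)
    omega
  -- inside `I`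
  letI := Fintype.ofFinite I
  set M : Subgroup I := R.subgroupOf I with hM
  letI := Fintype.ofFinite M
  let ε : M ≃* R := Subgroup.subgroupOfEquivOfLe hRI
  set θ' : M → ℂ := θ ∘ ε with hθ'
  have hθ'i : IsIrrCharacter M θ' := isIrr_comp ε.toMonoidHom ε.surjective hθ
  have hinv' : ∀ (g : I) (n : M), θ' ⟨g * n * g⁻¹, (inferInstance : M.Normal).conj_mem (n : I) n.2 g⟩ = θ' n := by
    intro g n
    exact (mem_inertia_iff.1 g.2) (ε n)
  haveI := finite_irr (G := I)
  letI := Fintype.ofFinite (IrrCharacter I)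
  obtain ⟨m, hm, hmdeg, hmsum⟩ := OverCount.sum_sq_over M hθ'i hinv'
  have hm1 : ∀ ξ : IrrCharacter I, m ξ ≤ 1 := by
    intro ξ
    by_contra hcon
    obtain ⟨η, hη, hoη⟩ := exists_over_subtype I ξ.2
    obtain ⟨b, hb⟩ := classInner_isNat (isCharacter_comp (I.subtype.comp M.subtype) (isIrr_isCharacter hη))
      (isIrr_isCharacter hθ'i)
    have h2 := mult_mono I.subtype M.subtype (isIrr_isCharacter hη) ξ.2 hoη hθ'i
      (a := m ξ) (b := b) (hm ξ) hb
    have hb' : classInner (fun r : R => η r) θ = b := by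
      rw [← hb]
      exact (classInner_comp_mulEquiv ε (fun r : R => η r) θ).symm
    have h3 : Over R.subtype η θ := by
      rw [over_subtype_iff, hb']
      have : b ≠ 0 := by omega
      exact_mod_cast this
    have h4 := hmult η hη h3 b hb'
    omega
  -- counting
  have hcount := OverCount.card_over_le M hθ'i hinv'
  have hidxle : M.index ≤ Nat.card (ConjClasses (I ⧸ M)) := by
    refine le_trans ?_ hcount
    rw [← hmsum, Nat.card_eq_fintype_card, Fintype.card_subtype, Finset.card_filter]
    refine Finset.sum_le_sum fun ξ _ => ?_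
    rw [hm ξ]
    have := hm1 ξ
    by_cases h0 : m ξ = 0
    · rw [h0]; simp
    · have h2 : m ξ = 1 := by omega
      rw [h2]; simp
  rw [Subgroup.index_eq_card] at hidxle
  have hcomm := comm_of_card hidxle
  refine no_abelian h5 (I.map π) hAne ?_ (by rw [hidx]; exact hile)
  rintro _ ⟨a, ha, rfl⟩ _ ⟨b, hb, rfl⟩
  have h2 := hcomm (QuotientGroup.mk ⟨a, ha⟩) (QuotientGroup.mk ⟨b, hb⟩)
  rw [← QuotientGroup.mk_mul, ← QuotientGroup.mk_mul, QuotientGroup.eq] at h2
  have h3 : ((⟨a, ha⟩ * ⟨b, hb⟩ : I)⁻¹ * (⟨b, hb⟩ * ⟨a, ha⟩ : I) : I) ∈ M := h2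
  rw [hM, Subgroup.mem_subgroupOf] at h3
  have h4 : (a * b)⁻¹ * (b * a) ∈ π.ker := by
    rw [hker]
    exact h3
  rw [MonoidHom.mem_ker, map_mul, map_inv, inv_mul_eq_one] at h4
  rw [← map_mul, ← map_mul]
  exact h4

/-- **(E2)** all irreducible characters of `R` are linear. -/
theorem charDegree_eq_one (h5 : 5 ≤ Fintype.card F)
    (hD : ∀ η : H → ℂ, IsIrrCharacter H η → charDegree η ≤ Fintype.card F + 1) (R : Subgroup H)
    [hR : R.Normal] (e : (H ⧸ R) ≃* Matrix.ProjectiveSpecialLinearGroup (Fin 2) F) {θ : R → ℂ}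
    (hθ : IsIrrCharacter R θ) : charDegree θ = 1 := by
  classical
  letI := Fintype.ofFinite H
  letI := Fintype.ofFinite R
  have htop := inertia_eq_top h5 hD R e hθ
  have hinv : ∀ (g : H) (n : R), θ ⟨g * n * g⁻¹, hR.conj_mem (n : H) n.2 g⟩ = θ n := fun g n => by
    have : g ∈ inertia R θ := by rw [htop]; trivial
    exact mem_inertia_iff.1 this n
  by_contra hne
  have hpos := charDegree_pos hθ
  haveI := finite_irr (G := H)
  letI := Fintype.ofFinite (IrrCharacter H)
  obtain ⟨m, hm, hmdeg, hmsum⟩ := OverCount.sum_sq_over R hθ hinv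
  have hcount := OverCount.card_over_le R hθ hinv
  have hk : Nat.card (ConjClasses (H ⧸ R)) =
      Nat.card (ConjClasses (Matrix.ProjectiveSpecialLinearGroup (Fin 2) F)) :=
    H92.KTools.card_classes_congr e
  have hidx : R.index = Nat.card (Matrix.ProjectiveSpecialLinearGroup (Fin 2) F) := by
    rw [Subgroup.index_eq_card]
    exact Nat.card_congr e.toEquiv
  have h1 : 4 * R.index ≤ Nat.card (ConjClasses (H ⧸ R)) * (Fintype.card F + 1) ^ 2 := by
    rw [← hmsum, Finset.mul_sum]
    refine le_trans ?_ (Nat.mul_le_mul_right _ hcount)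
    rw [Nat.card_eq_fintype_card, Fintype.card_subtype, Finset.card_filter, Finset.sum_mul]
    refine Finset.sum_le_sum fun ξ _ => ?_
    rw [hm ξ]
    by_cases h0 : m ξ = 0
    · rw [h0]; simp
    · have h2 := hmdeg ξ h0
      have h3 := hD ξ ξ.2
      have h4 : m ξ * 2 ≤ m ξ * charDegree θ := Nat.mul_le_mul_left _ (by omega)
      have h6 : 2 * m ξ ≤ Fintype.card F + 1 := by omega
      have h7 : ((m ξ : ℂ) ≠ 0) := by exact_mod_cast h0
      rw [if_pos h7, one_mul]
      have h8 : (2 * m ξ) ^ 2 ≤ (Fintype.card F + 1) ^ 2 := Nat.pow_le_pow_left h6 2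
      calc 4 * m ξ ^ 2 = (2 * m ξ) ^ 2 := by ring
        _ ≤ _ := h8
  rw [hk, hidx] at h1
  have := psl_classes h5
  omega

/-- **`R` is central.** -/
theorem central_abs (h5 : 5 ≤ Fintype.card F)
    (hD : ∀ η : H → ℂ, IsIrrCharacter H η → charDegree η ≤ Fintype.card F + 1) (R : Subgroup H)
    [hR : R.Normal] (e : (H ⧸ R) ≃* Matrix.ProjectiveSpecialLinearGroup (Fin 2) F) :
    R ≤ Subgroup.center H := by
  classical
  letI := Fintype.ofFinite H
  letI := Fintype.ofFinite R
  intro r hr
  rw [Subgroup.mem_center_iff]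
  intro h
  have h1 : h * r * h⁻¹ ∈ R := hR.conj_mem r hr h
  have key : (⟨h * r * h⁻¹, h1⟩ * (⟨r, hr⟩ : R)⁻¹ : R) = 1 := by
    apply eq_one_of_forall
    intro θ hθ
    have hd := charDegree_eq_one h5 hD R e hθ
    have hθ1 : θ 1 = 1 := by rw [← coe_charDegree hθ, hd, Nat.cast_one]
    obtain ⟨f, hf⟩ := Characters.Linear.exists_hom_of_isIrrCharacter hθ hθ1
    have htop := inertia_eq_top h5 hD R e hθ
    have h2 : θ ⟨h * r * h⁻¹, h1⟩ = θ ⟨r, hr⟩ := by
      have : h ∈ inertia R θ := by rw [htop]; trivial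
      exact mem_inertia_iff.1 this ⟨r, hr⟩
    rw [hθ1]
    have h3 : ∀ x, θ x = (f x : ℂ) := fun x => congrFun hf x
    rw [h3, map_mul, map_inv, Units.val_mul, ← h3, h2, h3, ← Units.val_mul, mul_inv_cancel,
      Units.val_one]
  have h2 := congrArg Subtype.val key
  have h3 : h * r * h⁻¹ * r⁻¹ = 1 := h2
  rw [mul_inv_eq_one, mul_inv_eq_iff_eq_mul] at h3
  exact h3

end Main

/-- **Part E of S4854.** -/
theorem central_of_psl {G : Type*} [Group G] [Finite G] {F : Type*} [Field F] [Fintype F]
    (h5 : 5 ≤ Fintype.card F) (hD : charDegrees G ⊆ Cfsg.Agent.H691.DS (Fintype.card F)) (N R : Subgroup G)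
    [N.Normal] [R.Normal] (_hRN : R ≤ N) (_hN : ⁅N, N⁆ = N)
    (e : (N ⧸ R.subgroupOf N) ≃* Matrix.ProjectiveSpecialLinearGroup (Fin 2) F) :
    R ≤ Subgroup.centralizer (N : Set G) := by
  classical
  have hDN : ∀ η : N → ℂ, IsIrrCharacter N η → charDegree η ≤ Fintype.card F + 1 := by
    intro η hη
    obtain ⟨χ, hχ, ho⟩ := exists_over_subtype N hη
    have h1 := charDegree_le_of_over hχ hη ho
    have h2 : charDegree χ ∈ Cfsg.Agent.H691.DS (Fintype.card F) := hD ⟨⟨χ, hχ⟩, rfl⟩
    have h3 : charDegree χ ≤ Fintype.card F + 1 := by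
      rcases h2 with h | h | h | h | h | h <;> omega
    omega
  have h1 := central_abs h5 hDN (R.subgroupOf N) e
  intro r hr
  rw [Subgroup.mem_centralizer_iff]
  intro n hn
  have h2 : (⟨r, _hRN hr⟩ : N) ∈ R.subgroupOf N := Subgroup.mem_subgroupOf.2 hr
  have h3 := Subgroup.mem_center_iff.1 (h1 h2) ⟨n, hn⟩
  exact congrArg Subtype.val h3

end Cfsg.Agent.H669.SlTwoE

private theorem dce_f277d391dd11 : _root_.True := by
  try have : _root_.True := by simp only [_root_.Matrix.ProjectiveSpecialLinearGroup.congr_simp]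
  exact _root_.True.intro
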